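import Groth.Agent.Lib.Helper1.Cent
import Groth.Prelude.Def_Curves

set_option autoImplicit false
set_option linter.unusedSectionVars false

universe u v w

open scoped TensorProduct
open Module

namespace Groth.Agent.Lib.Helper1.Cent

variable {k : Type u} [Field k] {A : Type v} [Ring A] [Algebra k A]

/-- A central simple subalgebra and its centralizer decompose `A` as a tensor product. -/
theorem tensor_centralizer_bijective [Algebra.IsCentral k A] [IsSimpleRing A]
    [FiniteDimensional k A] (B : Subalgebra k A) [IsSimpleRing B] [Algebra.IsCentral k B] :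
    Function.Bijective (Algebra.TensorProduct.lift B.val (Subalgebra.centralizer k (B : Set A)).val
      (fun x y => y.2 x.1 x.2)) := by
  have : IsSimpleRing (Subalgebra.centralizer k (B : Set A)) := isSimpleRing_centralizer B
  have hS : IsSimpleRing (Subalgebra.centralizer k (B : Set A) ⊗[k] B) :=
    CSA.isSimpleRing_tensor k (Subalgebra.centralizer k (B : Set A)) B
  have hS' : IsSimpleRing (B ⊗[k] Subalgebra.centralizer k (B : Set A)) :=
    IsSimpleRing.of_ringEquiv
      (Algebra.TensorProduct.comm k (Subalgebra.centralizer k (B : Set A)) B).toRingEquiv hS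
  set φ := Algebra.TensorProduct.lift B.val (Subalgebra.centralizer k (B : Set A)).val
      (fun x y => y.2 x.1 x.2) with hφ
  have hinj : Function.Injective φ := RingHom.injective φ.toRingHom
  have hdim : finrank k (B ⊗[k] Subalgebra.centralizer k (B : Set A)) = finrank k A := by
    rw [Module.finrank_tensorProduct]; exact finrank_mul_finrank_centralizer B
  exact ⟨hinj,
    (LinearMap.injective_iff_surjective_of_finrank_eq_finrank hdim (f := φ.toLinearMap)).mp hinj⟩

/-- A maximal commutative subalgebra of a central division algebra is its own centralizer, and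
`dim D = (dim L)²`. -/
theorem finrank_eq_sq_of_maximal_comm {D : Type v} [DivisionRing D] [Algebra k D]
    [Algebra.IsCentral k D] [FiniteDimensional k D]
    (L : Subalgebra k D) (hcomm : ∀ x ∈ L, ∀ y ∈ L, x * y = y * x)
    (hmax : ∀ L' : Subalgebra k D, (∀ x ∈ L', ∀ y ∈ L', x * y = y * x) → L ≤ L' → L' = L) :
    finrank k D = finrank k L ^ 2 := by
  have hCL : ∀ z ∈ Subalgebra.centralizer k (L : Set D), z ∈ L := by
    intro z hz
    have hc : ∀ a ∈ insert z (L : Set D), ∀ b ∈ insert z (L : Set D), a * b = b * a := by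
      intro a ha b hb
      rcases ha with rfl | ha <;> rcases hb with rfl | hb
      · rfl
      · exact ((Subalgebra.mem_centralizer_iff k).mp hz b hb).symm
      · exact (Subalgebra.mem_centralizer_iff k).mp hz a ha
      · exact hcomm a ha b hb
    letI := Algebra.adjoinCommSemiringOfComm k hc
    have hL'comm : ∀ x ∈ Algebra.adjoin k (insert z (L : Set D)),
        ∀ y ∈ Algebra.adjoin k (insert z (L : Set D)), x * y = y * x := by
      intro x hx y hy
      have := mul_comm (⟨x, hx⟩ : Algebra.adjoin k (insert z (L : Set D))) ⟨y, hy⟩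
      exact congrArg Subtype.val this
    have hle : L ≤ Algebra.adjoin k (insert z (L : Set D)) :=
      fun x hx => Algebra.subset_adjoin (Set.mem_insert_of_mem _ hx)
    have := hmax _ hL'comm hle
    rw [← this]
    exact Algebra.subset_adjoin (Set.mem_insert _ _)
  have hLC : L = Subalgebra.centralizer k (L : Set D) := by
    apply le_antisymm
    · intro x hx
      rw [Subalgebra.mem_centralizer_iff]
      intro y hy
      exact hcomm y hy x hx
    · exact hCL
  have hinv : ∀ x ∈ L, x⁻¹ ∈ L := by
    intro x hx
    apply hCL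
    rw [Subalgebra.mem_centralizer_iff]
    intro y hy
    exact (Commute.inv_right₀ (hcomm y hy x hx : Commute y x)).eq
  have hsimple : IsSimpleRing L := by
    refine IsSimpleRing.of_eq_bot_or_eq_top fun I => ?_
    by_cases hI : I = ⊥
    · exact Or.inl hI
    right
    obtain ⟨x, hxI, hx0⟩ : ∃ x ∈ I, x ≠ 0 := by
      by_contra h
      simp only [not_exists, not_and, not_not] at h
      apply hI
      ext x
      constructor
      · intro hx; exact (TwoSidedIdeal.mem_bot _).mpr (h x hx)
      · intro hx; rw [(TwoSidedIdeal.mem_bot _).mp hx]; exact I.zero_mem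
    have hx0' : (x : D) ≠ 0 := fun h => hx0 (Subtype.ext h)
    have h1 : (⟨(x : D)⁻¹, hinv x x.2⟩ : L) * x = 1 := Subtype.ext (inv_mul_cancel₀ hx0')
    have := I.mul_mem_left ⟨(x : D)⁻¹, hinv x x.2⟩ x hxI
    rw [h1] at this
    exact (TwoSidedIdeal.one_mem_iff I).mp this
  have h := finrank_mul_finrank_centralizer L
  rw [← hLC] at h
  rw [← h, sq]


end Groth.Agent.Lib.Helper1.Cent

namespace Groth.Agent.Lib.Helper1.Cent

variable {k : Type u} [Field k]

/-- The representation of `D` on `k'ⁿ` coming from a splitting `k' ⊗ D ≅ Mₙ(k')`. -/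
noncomputable def splitRep {D : Type v} [Ring D] [Algebra k D] {k' : Type w} [Field k']
    [Algebra k k'] {n : ℕ} (e : k' ⊗[k] D ≃ₐ[k'] Matrix (Fin n) (Fin n) k') :
    D →ₐ[k] Module.End k (Fin n → k') where
  toFun x := (Matrix.mulVecLin (e (1 ⊗ₜ x))).restrictScalars k
  map_one' := by
    refine LinearMap.ext fun v => ?_
    simp [← Algebra.TensorProduct.one_def]
  map_mul' x y := by
    refine LinearMap.ext fun v => ?_
    have : (1 : k') ⊗ₜ[k] (x * y) = ((1 : k') ⊗ₜ[k] x) * ((1 : k') ⊗ₜ[k] y) := by
      rw [Algebra.TensorProduct.tmul_mul_tmul, mul_one]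
    show (e (1 ⊗ₜ (x * y))).mulVec v = (e (1 ⊗ₜ x)).mulVec ((e (1 ⊗ₜ y)).mulVec v)
    rw [this, map_mul, Matrix.mulVec_mulVec]
  map_zero' := by refine LinearMap.ext fun v => ?_; simp
  map_add' x y := by
    refine LinearMap.ext fun v => ?_
    simp [TensorProduct.tmul_add, Matrix.add_mulVec]
  commutes' c := by
    refine LinearMap.ext fun v => ?_
    have : (1 : k') ⊗ₜ[k] (algebraMap k D c) = algebraMap k' (k' ⊗[k] D) (algebraMap k k' c) := by
      rw [← Algebra.TensorProduct.algebraMap_apply', IsScalarTower.algebraMap_apply k k' (k' ⊗[k] D)]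
    show (e (1 ⊗ₜ (algebraMap k D c))).mulVec v = algebraMap k (Module.End k (Fin n → k')) c v
    rw [this, AlgEquiv.commutes, Module.algebraMap_end_apply, ← algebraMap_smul k' c v]
    ext i
    rw [Matrix.algebraMap_eq_diagonal, Matrix.mulVec_diagonal]
    simp [Pi.algebraMap_apply]

lemma splitRep_apply {D : Type v} [Ring D] [Algebra k D] {k' : Type w} [Field k']
    [Algebra k k'] {n : ℕ} (e : k' ⊗[k] D ≃ₐ[k'] Matrix (Fin n) (Fin n) k') (x : D)
    (v : Fin n → k') : splitRep e x v = (e (1 ⊗ₜ x)).mulVec v := rfl


/-- If `k'` splits a division algebra `D` of dimension `d²`, then `d ∣ [k' : k]`. -/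
theorem dvd_finrank_of_splits {D : Type v} [DivisionRing D] [Algebra k D] [FiniteDimensional k D]
    (d : ℕ) (hd : finrank k D = d ^ 2) (k' : Type w) [Field k'] [Algebra k k']
    [FiniteDimensional k k'] (hs : Curves.Splits k D k') : d ∣ finrank k k' := by
  obtain ⟨n, hn, ⟨e⟩⟩ := hs
  have hnd : n = d := by
    have h1 : finrank k' (k' ⊗[k] D) = finrank k D := Module.finrank_baseChange
    have h2 : finrank k' (k' ⊗[k] D) = n * n := by
      rw [e.toLinearEquiv.finrank_eq, Module.finrank_matrix]; simp
    have : n ^ 2 = d ^ 2 := by rw [sq, ← h2, h1, hd]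
    exact (Nat.pow_left_injective two_ne_zero) this
  subst hnd
  let M := SMod.Rep (splitRep e)
  have : Module.Finite D M := Module.Finite.of_restrictScalars_finite k D M
  have h3 := Module.finrank_mul_finrank k D M
  have h4 : finrank k M = n * finrank k k' := by
    rw [← (SMod.Rep.of (splitRep e)).finrank_eq, SMod.finrank_fun]
  rw [h4, hd, sq, mul_assoc] at h3
  have hpos : 0 < n := Nat.pos_of_ne_zero hn
  exact ⟨_, (Nat.eq_of_mul_eq_mul_left hpos h3).symm⟩

end Groth.Agent.Lib.Helper1.Cent
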