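import Groth.Agent.Lib.Helper1.Flasque
universe u
open CategoryTheory Limits Opposite TopologicalSpace
namespace Groth.Agent.Lib.Helper1

section ConstIrr
variable {X : TopCat.{u}} (A : Type u) [AddCommGroup A]

/-- The constant presheaf. -/
noncomputable abbrev constPre (X : TopCat.{u}) (A : Type u) [AddCommGroup A] :
    (Opens X)ᵒᵖ ⥤ AddCommGrpCat.{u} :=
  (Functor.const (Opens X)ᵒᵖ).obj (AddCommGrpCat.of A)

/-- The constant sheaf, as the sheafification of the constant presheaf. -/
noncomputable abbrev constSh (X : TopCat.{u}) (A : Type u) [AddCommGroup A] : CohTop.Ab X :=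
  (presheafToSheaf (Opens.grothendieckTopology X) AddCommGrpCat.{u}).obj (constPre X A)

lemma const_eq_eta [IrreducibleSpace X] {V : Opens X} (hV : (V : Set X).Nonempty)
    (t : ToType ((constSh X A).obj.obj (op V))) :
    ∃ a : A, t = (toSheafify (Opens.grothendieckTopology X) (constPre X A)).app (op V) a := by
  have hs := Presheaf.imageSieve_mem (Opens.grothendieckTopology X)
    (toSheafify (Opens.grothendieckTopology X) (constPre X A)) (U := op V) t
  obtain ⟨x₀, hx₀⟩ := hV
  obtain ⟨W₀, f₀, ⟨a₀, ha₀⟩, hxW₀⟩ := hs x₀ hx₀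
  refine ⟨a₀, ?_⟩
  choose W f ha hxW using fun (x : V) => hs x.1 x.2
  refine TopCat.Sheaf.eq_of_locally_eq' (constSh X A) W V f (fun x hx => ?_) t
    ((toSheafify (Opens.grothendieckTopology X) (constPre X A)).app (op V) a₀) ?_
  · exact Opens.mem_iSup.2 ⟨⟨x, hx⟩, hxW ⟨x, hx⟩⟩
  intro x
  obtain ⟨a, ha'⟩ := ha x
  have key : a = a₀ := by
    have hne : ((W x ⊓ W₀ : Opens X) : Set X).Nonempty :=
      nonempty_preirreducible_inter (W x).isOpen W₀.isOpen ⟨x.1, hxW x⟩ ⟨x₀, hxW₀⟩
    let i₁ : (W x ⊓ W₀ : Opens X) ⟶ W x := homOfLE inf_le_left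
    let i₂ : (W x ⊓ W₀ : Opens X) ⟶ W₀ := homOfLE inf_le_right
    have h1 : (toSheafify (Opens.grothendieckTopology X) (constPre X A)).app (op (W x ⊓ W₀))
        ((constPre X A).map i₁.op a) =
        (sheafify (Opens.grothendieckTopology X) (constPre X A)).map (i₁ ≫ f x).op t := by
      rw [NatTrans.naturality_apply, ha', op_comp, Functor.map_comp, ConcreteCategory.comp_apply]
    have h2 : (toSheafify (Opens.grothendieckTopology X) (constPre X A)).app (op (W x ⊓ W₀))
        ((constPre X A).map i₂.op a₀) =
        (sheafify (Opens.grothendieckTopology X) (constPre X A)).map (i₂ ≫ f₀).op t := by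
      rw [NatTrans.naturality_apply, ha₀, op_comp, Functor.map_comp, ConcreteCategory.comp_apply]
    have e : (toSheafify (Opens.grothendieckTopology X) (constPre X A)).app (op (W x ⊓ W₀))
        ((constPre X A).map i₁.op a) =
        (toSheafify (Opens.grothendieckTopology X) (constPre X A)).app (op (W x ⊓ W₀))
        ((constPre X A).map i₂.op a₀) := by
      rw [h1, h2, Subsingleton.elim (i₁ ≫ f x) (i₂ ≫ f₀)]
    have hq := Presheaf.equalizerSieve_mem (Opens.grothendieckTopology X)
      (toSheafify (Opens.grothendieckTopology X) (constPre X A)) _ _ e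
    obtain ⟨y, hy⟩ := hne
    obtain ⟨W', g, hg, -⟩ := hq y hy
    simpa using hg
  subst key
  rw [← ha', ← NatTrans.naturality_apply]
  simp

/-- The constant sheaf on an irreducible space is flasque. -/
theorem isFlasque_constSh [IrreducibleSpace X] : TopCat.Sheaf.IsFlasque (constSh X A) where
  epi {U V} i := by
    rw [AddCommGrpCat.epi_iff_surjective]
    intro t
    by_cases hV : (V.unop : Set X).Nonempty
    · obtain ⟨a, rfl⟩ := const_eq_eta A hV t
      refine ⟨(toSheafify (Opens.grothendieckTopology X) (constPre X A)).app U a, ?_⟩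
      change (sheafify (Opens.grothendieckTopology X) (constPre X A)).map i _ = _
      rw [← NatTrans.naturality_apply]
      rfl
    · have hb : V.unop = ⊥ := Opens.ext (Set.not_nonempty_iff_eq_empty.1 hV)
      have hs := AddCommGrpCat.subsingleton_of_isZero
        ((TopCat.Sheaf.isTerminalOfEqEmpty (constSh X A) hb).isZero)
      exact ⟨0, Subsingleton.elim (α := ToType ((constSh X A).obj.obj (op V.unop))) _ _⟩

end ConstIrr
end Groth.Agent.Lib.Helper1
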