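import Groth.Agent.Lib.Helper1.CSAI
import Mathlib.FieldTheory.Galois.GaloisClosure
import Mathlib.RingTheory.Flat.FaithfullyFlat.Basic

set_option autoImplicit false

universe u v w

open scoped TensorProduct
open Module

namespace Groth.Agent.Lib.Helper1.Desc

variable {k : Type u} [Field k] {L : Type w} [Field L] [Algebra k L] {A : Type v} [Ring A]
  [Algebra k A]

/-- The inclusion `K ⊗ A → L ⊗ A` for an intermediate field `K`. -/
noncomputable def incl (K : IntermediateField k L) : K ⊗[k] A →ₐ[k] L ⊗[k] A :=
  Algebra.TensorProduct.map (IsScalarTower.toAlgHom k K L) (AlgHom.id k A)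

lemma incl_injective (K : IntermediateField k L) : Function.Injective (incl (A := A) K) := by
  have := Module.Flat.rTensor_preserves_injective_linearMap (M := A)
    ((IsScalarTower.toAlgHom k K L).toLinearMap) Subtype.val_injective
  exact this

lemma incl_one (K : IntermediateField k L) : incl (A := A) K 1 = 1 := by
  rw [Algebra.TensorProduct.one_def, incl, Algebra.TensorProduct.map_tmul]
  simp [Algebra.TensorProduct.one_def]

lemma exists_finset (x : L ⊗[k] A) : ∃ S : Finset L, ∀ K : IntermediateField k L,
    (↑S : Set L) ⊆ K → ∃ y : K ⊗[k] A, incl K y = x := by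
  classical
  induction x using TensorProduct.induction_on with
  | zero => exact ⟨∅, fun K _ => ⟨0, map_zero _⟩⟩
  | tmul c a =>
    refine ⟨{c}, fun K hK => ⟨⟨c, hK (by simp)⟩ ⊗ₜ a, ?_⟩⟩
    simp [incl]
  | add x y hx hy =>
    obtain ⟨S, hS⟩ := hx
    obtain ⟨T, hT⟩ := hy
    refine ⟨S ∪ T, fun K hK => ?_⟩
    obtain ⟨x', hx'⟩ := hS K (subset_trans (by simp) hK)
    obtain ⟨y', hy'⟩ := hT K (subset_trans (by simp) hK)
    exact ⟨x' + y', by rw [map_add, hx', hy']⟩


/-- An algebra with a full system of matrix units receives a map from the matrix algebra. -/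
noncomputable def matUnitsHom {K : Type*} [Field K] {B : Type*} [Ring B] [Algebra K B] {n : ℕ}
    (F : Fin n → Fin n → B) (hmul : ∀ i j l m, F i j * F l m = if j = l then F i m else 0)
    (hone : ∑ i, F i i = 1) : Matrix (Fin n) (Fin n) K →ₐ[K] B :=
  AlgHom.ofLinearMap
    { toFun := fun M => ∑ i, ∑ j, M i j • F i j
      map_add' := fun M N => by simp [add_smul, Finset.sum_add_distrib]
      map_smul' := fun c M => by simp [Finset.smul_sum, smul_smul] }
    (by simp [Matrix.one_apply, ite_smul, hone])
    (fun M N => by
      simp only [LinearMap.coe_mk, AddHom.coe_mk]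
      rw [Finset.sum_mul]
      simp_rw [Finset.sum_mul, Finset.mul_sum, smul_mul_smul_comm, hmul, smul_ite, smul_zero,
        Matrix.mul_apply, Finset.sum_smul]
      refine Finset.sum_congr rfl fun x _ => ?_
      rw [Finset.sum_comm]
      refine Finset.sum_congr rfl fun j _ => ?_
      rw [Finset.sum_comm]
      simp)


/-- Descent of a splitting to an intermediate field containing finitely many coefficients. -/
theorem splits_descent (h : Curves.Splits k A L) :
    ∃ S : Finset L, ∀ K : IntermediateField k L, (↑S : Set L) ⊆ K → Curves.Splits k A K := by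
  classical
  obtain ⟨n, hn, ⟨e⟩⟩ := h
  let E : Fin n → Fin n → L ⊗[k] A := fun i j => e.symm (Matrix.single i j 1)
  have hE : ∀ i j, ∃ S : Finset L, ∀ K : IntermediateField k L, (↑S : Set L) ⊆ K →
      ∃ y : K ⊗[k] A, incl K y = E i j := fun i j => exists_finset (E i j)
  choose S hS using hE
  refine ⟨Finset.univ.biUnion (fun p : Fin n × Fin n => S p.1 p.2), fun K hK => ?_⟩
  have hK' : ∀ i j, (↑(S i j) : Set L) ⊆ K := by
    intro i j
    refine subset_trans ?_ hK
    intro x hx
    simp only [Finset.coe_biUnion, Finset.coe_univ, Set.mem_univ, Set.iUnion_true,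
      Set.mem_iUnion, Finset.mem_coe, Prod.exists]
    exact ⟨i, j, hx⟩
  choose F hF using fun i j => hS i j K (hK' i j)
  have hmulE : ∀ i j l m, E i j * E l m = if j = l then E i m else 0 := by
    intro i j l m
    simp only [E, ← map_mul]
    split_ifs with h
    · subst h; rw [Matrix.single_mul_single_same, mul_one]
    · simp [Matrix.single_mul_single_of_ne, h]
  have honeE : ∑ i, E i i = 1 := by
    simp only [E, ← map_sum, Matrix.sum_single_one, map_one]
  have hmul : ∀ i j l m, F i j * F l m = if j = l then F i m else 0 := by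
    intro i j l m
    apply incl_injective K
    rw [map_mul, hF, hF, hmulE]
    split_ifs
    · rw [hF]
    · rw [map_zero]
  have hone : ∑ i, F i i = 1 := by
    apply incl_injective K
    rw [map_sum, incl_one]
    simp_rw [hF]
    exact honeE
  let Φ := matUnitsHom (K := K) F hmul hone
  have : Nonempty (Fin n) := ⟨⟨0, Nat.pos_of_ne_zero hn⟩⟩
  have hnt : Nontrivial (K ⊗[k] A) := by
    refine ⟨⟨0, 1, fun h0 => ?_⟩⟩
    have h1 : e (incl K 0) = e (incl K 1) := by rw [h0]
    rw [map_zero, incl_one, map_zero, map_one] at h1
    exact zero_ne_one h1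
  have hinj : Function.Injective Φ := RingHom.injective Φ.toRingHom
  have hdim : finrank K (Matrix (Fin n) (Fin n) K) = finrank K (K ⊗[k] A) := by
    rw [Module.finrank_matrix, Module.finrank_baseChange,
      ← Module.finrank_baseChange (R := L) (S := k) (M' := A), e.toLinearEquiv.finrank_eq,
      Module.finrank_matrix]
    simp
  have hpos : 0 < finrank K (K ⊗[k] A) := by
    rw [← hdim, Module.finrank_matrix]; simp [Nat.pos_of_ne_zero hn]
  have hfin : FiniteDimensional K (K ⊗[k] A) := Module.finite_of_finrank_pos hpos
  have hsurj : Function.Surjective Φ :=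
    (LinearMap.injective_iff_surjective_of_finrank_eq_finrank hdim (f := Φ.toLinearMap)).mp hinj
  exact ⟨n, hn, ⟨(AlgEquiv.ofBijective Φ ⟨hinj, hsurj⟩).symm⟩⟩


end Groth.Agent.Lib.Helper1.Desc

namespace Groth.Agent.Lib.Helper1.Desc

variable (k : Type u) [Field k] (A : Type v) [Ring A] [Algebra k A] [Algebra.IsCentral k A]
  [IsSimpleRing A] [FiniteDimensional k A]

theorem exists_finite_separable_splitting :
    ∃ (k' : Type u) (_ : Field k') (_ : Algebra k k'), FiniteDimensional k k' ∧
      Algebra.IsSeparable k k' ∧ Curves.Splits k A k' := by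
  have h := CSAI.splits_of_isSepClosed (k := k) (SeparableClosure k) A
  obtain ⟨S, hS⟩ := splits_descent h
  let K := IntermediateField.adjoin k (S : Set (SeparableClosure k))
  have hfin : FiniteDimensional k K := IntermediateField.finiteDimensional_adjoin
    (fun x _ => (Algebra.IsSeparable.isSeparable k x).isIntegral)
  have hsep : Algebra.IsSeparable k K :=
    Algebra.isSeparable_tower_bot_of_isSeparable k K (SeparableClosure k)
  exact ⟨K, inferInstance, inferInstance, hfin, hsep, hS K (IntermediateField.subset_adjoin k _)⟩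

theorem exists_galois_splitting :
    ∃ (k' : Type u) (_ : Field k') (_ : Algebra k k'), FiniteDimensional k k' ∧
      IsGalois k k' ∧ Curves.Splits k A k' := by
  have h := CSAI.splits_of_isSepClosed (k := k) (SeparableClosure k) A
  obtain ⟨S, hS⟩ := splits_descent h
  let K := FiniteGaloisIntermediateField.adjoin k (S : Set (SeparableClosure k))
  exact ⟨K.toIntermediateField, inferInstance, inferInstance, K.finiteDimensional, K.isGalois,
    hS _ (FiniteGaloisIntermediateField.subset_adjoin k _)⟩

end Groth.Agent.Lib.Helper1.Desc
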