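import Mathlib.AlgebraicGeometry.Morphisms.FormallyUnramified
import Mathlib.AlgebraicGeometry.Morphisms.Separated
import Mathlib.AlgebraicGeometry.ResidueField
import Mathlib.AlgebraicGeometry.Morphisms.IsIso

/-!
# Equalizers of morphisms into schemes with open-immersion diagonal

If `p : Y ⟶ S` has open-immersion diagonal and `f g : X ⟶ Y` are two `S`-morphisms agreeing after
`Spec κ(x) ⟶ X`, then they agree on an open neighbourhood of `x`.
-/

set_option autoImplicit false

universe u

open CategoryTheory Limits AlgebraicGeometry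

namespace Groth.Agent.Lib.Helper1

variable {X Y S : Scheme.{u}} (p : Y ⟶ S) (f g : X ⟶ Y) (hfg : f ≫ p = g ≫ p)
include hfg

/-- The canonical "equalizer" map `pullback Δ (f,g) ⟶ X`. -/
noncomputable abbrev eqzr : pullback (pullback.diagonal p) (pullback.lift f g hfg) ⟶ X :=
  pullback.snd (pullback.diagonal p) (pullback.lift f g hfg)

lemma eqzr_comp_left : eqzr p f g hfg ≫ f =
    pullback.fst (pullback.diagonal p) (pullback.lift f g hfg) := by
  calc eqzr p f g hfg ≫ f = eqzr p f g hfg ≫ pullback.lift f g hfg ≫ pullback.fst p p := by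
        rw [pullback.lift_fst]
    _ = pullback.fst _ _ ≫ pullback.diagonal p ≫ pullback.fst p p := by
        rw [← pullback.condition_assoc]
    _ = _ := by simp

lemma eqzr_comp_right : eqzr p f g hfg ≫ g =
    pullback.fst (pullback.diagonal p) (pullback.lift f g hfg) := by
  calc eqzr p f g hfg ≫ g = eqzr p f g hfg ≫ pullback.lift f g hfg ≫ pullback.snd p p := by
        rw [pullback.lift_snd]
    _ = pullback.fst _ _ ≫ pullback.diagonal p ≫ pullback.snd p p := by
        rw [← pullback.condition_assoc]
    _ = _ := by simp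

lemma eqzr_comp : eqzr p f g hfg ≫ f = eqzr p f g hfg ≫ g := by
  rw [eqzr_comp_left, eqzr_comp_right]

lemma mem_range_eqzr (x : X)
    (hx : X.fromSpecResidueField x ≫ f = X.fromSpecResidueField x ≫ g) :
    x ∈ Set.range (eqzr p f g hfg) := by
  have hl : X.fromSpecResidueField x ≫ pullback.lift f g hfg =
      (X.fromSpecResidueField x ≫ f) ≫ pullback.diagonal p := by
    apply pullback.hom_ext
    · rw [Category.assoc, Category.assoc, pullback.lift_fst, pullback.diagonal_fst, Category.comp_id]
    · rw [Category.assoc, Category.assoc, pullback.lift_snd, pullback.diagonal_snd, Category.comp_id,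
        hx]
  let s := pullback.lift _ _ hl.symm
  have hs : s ≫ eqzr p f g hfg = X.fromSpecResidueField x := pullback.lift_snd _ _ _
  refine ⟨s (IsLocalRing.closedPoint (X.residueField x)), ?_⟩
  rw [← Scheme.Hom.comp_apply, hs, Scheme.fromSpecResidueField_apply]

theorem exists_opens_eq_of_isOpenImmersion_diagonal [IsOpenImmersion (pullback.diagonal p)]
    (x : X) (hx : X.fromSpecResidueField x ≫ f = X.fromSpecResidueField x ≫ g) :
    ∃ U : X.Opens, x ∈ U ∧ U.ι ≫ f = U.ι ≫ g := by
  refine ⟨(eqzr p f g hfg).opensRange, ?_, ?_⟩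
  · simpa [Scheme.Hom.coe_opensRange] using mem_range_eqzr p f g hfg x hx
  · rw [← Scheme.Hom.isoOpensRange_inv_comp, Category.assoc, Category.assoc, eqzr_comp]

/-- If the diagonal is both an open and a closed immersion, two `S`-morphisms from a connected scheme
agreeing after `Spec κ(x) ⟶ X` are equal. -/
theorem eq_of_isOpenImmersion_isClosedImmersion_diagonal [IsOpenImmersion (pullback.diagonal p)]
    [IsClosedImmersion (pullback.diagonal p)] [ConnectedSpace X]
    (x : X) (hx : X.fromSpecResidueField x ≫ f = X.fromSpecResidueField x ≫ g) : f = g := by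
  have h1 : IsOpen (Set.range (eqzr p f g hfg)) := (eqzr p f g hfg).isOpenEmbedding.isOpen_range
  have h2 : IsClosed (Set.range (eqzr p f g hfg)) :=
    (eqzr p f g hfg).isClosedEmbedding.isClosed_range
  have hne : (Set.range (eqzr p f g hfg)).Nonempty := ⟨x, mem_range_eqzr p f g hfg x hx⟩
  have huniv : Set.range (eqzr p f g hfg) = Set.univ :=
    (isClopen_iff.mp ⟨h2, h1⟩).resolve_left hne.ne_empty
  have : Surjective (eqzr p f g hfg) := ⟨Set.range_eq_univ.mp huniv⟩
  have : IsIso (eqzr p f g hfg) := (isIso_iff_isOpenImmersion_and_surjective _).mpr ⟨inferInstance, inferInstance⟩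
  rw [← cancel_epi (eqzr p f g hfg)]
  exact eqzr_comp p f g hfg

end Groth.Agent.Lib.Helper1
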