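import Mathlib.CategoryTheory.Sites.SheafCohomology.Basic
import Mathlib.Algebra.Homology.DerivedCategory.Ext.ExactSequences
import Mathlib.Topology.Sheaves.Flasque
import Groth.Prelude.Def_CohTop

universe w u

open CategoryTheory Limits Opposite TopologicalSpace

namespace Groth.Agent.Lib.Helper1

section Site
variable {C : Type u} [SmallCategory C] (J : GrothendieckTopology C)

/-- The free abelian sheaf on an object. -/
noncomputable abbrev freeSh (U : C) : Sheaf J AddCommGrpCat.{u} :=
  (presheafToSheaf J AddCommGrpCat.{u}).obj (yoneda.obj U ⋙ AddCommGrpCat.free)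

/-- Morphisms out of the free sheaf on `U` are sections over `U`. -/
noncomputable def freeShHomEquiv (U : C) (G : Sheaf J AddCommGrpCat.{u}) :
    (freeSh J U ⟶ G) ≃ G.obj.obj (op U) :=
  ((sheafificationAdjunction J AddCommGrpCat.{u}).homEquiv _ _).trans
    (((AddCommGrpCat.adj.{u}.whiskerRight (C := Cᵒᵖ)).homEquiv _ _).trans yonedaEquiv)

/-- The map of free sheaves induced by a morphism of the site. -/
noncomputable abbrev freeShMap {V U : C} (f : V ⟶ U) : freeSh J V ⟶ freeSh J U :=
  (presheafToSheaf J AddCommGrpCat.{u}).map (Functor.whiskerRight (yoneda.map f) _)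

lemma freeShHomEquiv_naturality_left {V U : C} (f : V ⟶ U) (G : Sheaf J AddCommGrpCat.{u})
    (φ : freeSh J U ⟶ G) :
    freeShHomEquiv J V G (freeShMap J f ≫ φ) = G.obj.map f.op (freeShHomEquiv J U G φ) := by
  unfold freeShHomEquiv freeShMap
  rw [Equiv.trans_apply, Equiv.trans_apply, Adjunction.homEquiv_naturality_left]
  rw [show Functor.whiskerRight (yoneda.map f) AddCommGrpCat.free =
    ((Functor.whiskeringRight Cᵒᵖ _ _).obj AddCommGrpCat.free).map (yoneda.map f) from rfl]
  rw [Adjunction.homEquiv_naturality_left]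
  rw [Equiv.trans_apply, Equiv.trans_apply]
  rw [← yonedaEquiv_naturality]
  rfl

lemma freeShHomEquiv_naturality_right (U : C) {G G' : Sheaf J AddCommGrpCat.{u}}
    (φ : freeSh J U ⟶ G) (ψ : G ⟶ G') :
    freeShHomEquiv J U G' (φ ≫ ψ) = ψ.hom.app (op U) (freeShHomEquiv J U G φ) := by
  unfold freeShHomEquiv
  rw [Equiv.trans_apply, Equiv.trans_apply, Adjunction.homEquiv_naturality_right]
  rw [Equiv.trans_apply, Equiv.trans_apply]
  erw [Adjunction.homEquiv_naturality_right]
  rw [yonedaEquiv_comp]
  rfl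

end Site

section Acyclic

variable {A : Type*} [Category A] [Abelian A] [EnoughInjectives A]

/-- The short exact sequence `0 → F → I(F) → coker → 0` attached to the chosen injective hull. -/
noncomputable abbrev injSeq (F : A) : ShortComplex A := ShortComplex.cokernelSequence (Injective.ι F)

instance (F : A) : Mono (injSeq F).f := (inferInstance : Mono (Injective.ι F))

instance (F : A) : Injective (injSeq F).X₂ := (inferInstance : Injective (Injective.under F))

lemma injSeq_shortExact (F : A) : (injSeq F).ShortExact where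
  exact := ShortComplex.cokernelSequence_exact _

/-- Dimension shifting: if a class `P` of objects is stable under passing to the cokernel of the
chosen injective embedding, and degree-zero classes from `Xo` lift along that embedding, then
`Ext Xo F (n+1)` vanishes for `F` in `P`. -/
theorem ext_succ_eq_zero_of_class [HasExt.{w} A] (P : A → Prop) (Xo : A)
    (hQ : ∀ F, P F → P (injSeq F).X₃)
    (hsurj : ∀ F, P F → ∀ x₃ : Abelian.Ext Xo (injSeq F).X₃ 0,
      ∃ y : Abelian.Ext Xo (injSeq F).X₂ 0,
        y.comp (Abelian.Ext.mk₀ (injSeq F).g) (add_zero 0) = x₃) :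
    ∀ (n : ℕ) (F : A), P F → ∀ x : Abelian.Ext Xo F (n + 1), x = 0 := by
  intro n
  induction n with
  | zero =>
    intro F hF x
    have hS := injSeq_shortExact F
    have h1 : x.comp (Abelian.Ext.mk₀ (injSeq F).f) (add_zero _) = 0 :=
      Abelian.Ext.eq_zero_of_injective _
    obtain ⟨x₃, hx₃⟩ := Abelian.Ext.covariant_sequence_exact₁ Xo hS x h1 (rfl : 0 + 1 = 1)
    obtain ⟨y, hy⟩ := hsurj F hF x₃
    rw [← hx₃, ← hy, Abelian.Ext.comp_assoc _ _ _ (add_zero 0) (zero_add 1) (by simp),
      hS.comp_extClass, Abelian.Ext.comp_zero]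
    rfl
  | succ k ih =>
    intro F hF x
    have hS := injSeq_shortExact F
    have h1 : x.comp (Abelian.Ext.mk₀ (injSeq F).f) (add_zero _) = 0 :=
      Abelian.Ext.eq_zero_of_injective _
    obtain ⟨x₃, hx₃⟩ := Abelian.Ext.covariant_sequence_exact₁ Xo hS x h1 (rfl : k + 1 + 1 = k + 2)
    rw [← hx₃, ih (injSeq F).X₃ (hQ F hF) x₃, Abelian.Ext.zero_comp]
    rfl

end Acyclic

section Flasque

variable {X : TopCat.{u}}

/-- Injective abelian sheaves on a space are flasque. -/
theorem isFlasque_of_injective (F : CohTop.Ab X) [Injective F] : TopCat.Sheaf.IsFlasque F where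
  epi {U V} i := by
    rw [AddCommGrpCat.epi_iff_surjective]
    intro t
    let φ := (freeShHomEquiv (Opens.grothendieckTopology X) V.unop F).symm t
    refine ⟨freeShHomEquiv (Opens.grothendieckTopology X) U.unop F
      (Injective.factorThru φ (freeShMap (Opens.grothendieckTopology X) i.unop)), ?_⟩
    have h := freeShHomEquiv_naturality_left (Opens.grothendieckTopology X) i.unop F
      (Injective.factorThru φ (freeShMap (Opens.grothendieckTopology X) i.unop))
    rw [Injective.comp_factorThru] at h
    change F.obj.map i.unop.op _ = t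
    rw [← h]
    simp [φ]

theorem isFlasque_injSeq_X₃ (F : CohTop.Ab X) [hF : TopCat.Sheaf.IsFlasque F] :
    TopCat.Sheaf.IsFlasque (injSeq F).X₃ := by
  have : TopCat.Sheaf.IsFlasque (injSeq F).X₂ := isFlasque_of_injective _
  have : TopCat.Sheaf.IsFlasque (injSeq F).X₁ := hF
  exact TopCat.Sheaf.IsFlasque.of_shortExact_of_isFlasque₁₂ (injSeq_shortExact F)

/-- Flasque sheaves have vanishing cohomology over every open in positive degrees. -/
theorem flasque_HU_eq_zero (n : ℕ) (F : CohTop.Ab X) (hF : TopCat.Sheaf.IsFlasque F) (U : Opens X)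
    (x : CohTop.HU F (n + 1) U) : x = 0 := by
  refine ext_succ_eq_zero_of_class.{u} (fun G : CohTop.Ab X => TopCat.Sheaf.IsFlasque G)
    (freeSh (Opens.grothendieckTopology X) U) (fun G hG => @isFlasque_injSeq_X₃ _ G hG) ?_ n F hF x
  intro G hG x₃
  let q := Abelian.Ext.homEquiv₀ x₃
  let t := freeShHomEquiv (Opens.grothendieckTopology X) U _ q
  have hepi := @TopCat.Sheaf.IsFlasque.epi_of_shortExact X U _ (injSeq_shortExact G) hG
  rw [AddCommGrpCat.epi_iff_surjective] at hepi
  obtain ⟨s, hs⟩ := hepi t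
  let p := (freeShHomEquiv (Opens.grothendieckTopology X) U _).symm s
  refine ⟨Abelian.Ext.mk₀ p, ?_⟩
  rw [Abelian.Ext.mk₀_comp_mk₀]
  have : p ≫ (injSeq G).g = q := by
    apply (freeShHomEquiv (Opens.grothendieckTopology X) U _).injective
    rw [freeShHomEquiv_naturality_right]
    simpa [p] using hs
  rw [this]
  exact Abelian.Ext.mk₀_homEquiv₀_apply x₃

/-- Flasque sheaves have vanishing global cohomology in positive degrees. -/
theorem flasque_H_eq_zero (n : ℕ) (F : CohTop.Ab X) (hF : TopCat.Sheaf.IsFlasque F)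
    (x : CohTop.H F (n + 1)) : x = 0 := by
  refine ext_succ_eq_zero_of_class.{u} (fun G : CohTop.Ab X => TopCat.Sheaf.IsFlasque G)
    ((constantSheaf (Opens.grothendieckTopology X) AddCommGrpCat.{u}).obj
      (AddCommGrpCat.of (ULift ℤ)))
    (fun G hG => @isFlasque_injSeq_X₃ _ G hG) ?_ n F hF x
  intro G hG x₃
  have hT : IsTerminal (⊤ : Opens X) := Preorder.isTerminalTop _
  let t := Sheaf.H.equiv₀ _ hT x₃
  have hepi := @TopCat.Sheaf.IsFlasque.epi_of_shortExact X ⊤ _ (injSeq_shortExact G) hG
  rw [AddCommGrpCat.epi_iff_surjective] at hepi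
  obtain ⟨s, hs⟩ := hepi t
  refine ⟨(Sheaf.H.equiv₀ _ hT).symm s, ?_⟩
  rw [← Sheaf.H.map_apply, Sheaf.H.equiv₀_symm_naturality]
  change (Sheaf.H.equiv₀ _ hT).symm ((injSeq G).g.hom.app (op ⊤) s) = x₃
  rw [hs]
  simp [t]

end Flasque

end Groth.Agent.Lib.Helper1
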