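import Mathlib.RingTheory.Henselian
import Mathlib.RingTheory.Ideal.Quotient.Nilpotent
import Mathlib.RingTheory.KrullDimension.Basic
import Mathlib.RingTheory.KrullDimension.Zero
import Mathlib.RingTheory.Nilpotent.Lemmas
import Mathlib.RingTheory.Nilpotent.Basic
import Mathlib.Algebra.Polynomial.Identities
import Mathlib.Algebra.Polynomial.Lifts
import Mathlib.Tactic.LinearCombination

open Polynomial

namespace Groth.Agent.Lib.Helper1

/-- A ring is adically complete with respect to an ideal with a vanishing power. -/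
theorem isAdicComplete_of_pow_eq_bot {R : Type*} [CommRing R] (J : Ideal R) (N : ℕ)
    (hN : J ^ N = ⊥) : IsAdicComplete J R where
  haus' x hx := by
    have := hx N
    rw [SModEq.zero, smul_eq_mul, Ideal.mul_top, hN] at this
    simpa using this
  prec' f hf := by
    refine ⟨f N, fun n => ?_⟩
    rcases le_total n N with h | h
    · exact hf h
    · have h1 := hf h
      have : J ^ N • (⊤ : Submodule R R) = ⊥ := by rw [smul_eq_mul, Ideal.mul_top, hN]
      rw [SModEq, this, Submodule.Quotient.eq, Submodule.mem_bot, sub_eq_zero] at h1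
      rw [h1]

/-- A ring is Henselian at any ideal all of whose elements are nilpotent. -/
theorem henselianRing_of_isNilpotent {A : Type*} [CommRing A] (I : Ideal A)
    (hI : ∀ x ∈ I, IsNilpotent x) : HenselianRing A I where
  jac x hx := Ideal.mem_jacobson_bot.2 fun y =>
    IsNilpotent.isUnit_add_one ((Commute.all x y).isNilpotent_mul_right (hI x hx))
  is_henselian f hf a₀ h₁ h₂ := by
    obtain ⟨N, hN⟩ := hI _ h₁
    let J := Ideal.span {f.eval a₀}
    have hJ : J ^ N = ⊥ := by
      rw [Ideal.span_singleton_pow, hN, Ideal.span_singleton_eq_bot]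
    have := isAdicComplete_of_pow_eq_bot J N hJ
    have hu : IsUnit (f.derivative.eval a₀) := by
      obtain ⟨v, hv⟩ := h₂
      obtain ⟨b, hb⟩ := Ideal.Quotient.mk_surjective (v⁻¹ : (A ⧸ I)ˣ).1
      have hmem : f.derivative.eval a₀ * b - 1 ∈ I := by
        rw [← Ideal.Quotient.eq_zero_iff_mem, map_sub, map_mul, map_one, hb, ← hv]
        simp
      have hu' : IsUnit (f.derivative.eval a₀ * b) := by
        have := IsNilpotent.isUnit_add_one (hI _ hmem)
        simpa using this
      exact isUnit_of_mul_isUnit_left hu'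
    obtain ⟨a, ha, haJ⟩ := HenselianRing.is_henselian (I := J) f hf a₀ (Ideal.subset_span rfl)
      (hu.map _)
    refine ⟨a, ha, ?_⟩
    have hJI : J ≤ I := (Ideal.span_singleton_le_iff_mem I).2 h₁
    exact hJI haJ

end Groth.Agent.Lib.Helper1

namespace Groth.Agent.Lib.Helper1

section HenselLe

variable {A : Type*} [CommRing A]

lemma isUnit_add_of_mem_jacobson {u x : A} (hu : IsUnit u) (hx : x ∈ Ideal.jacobson ⊥) :
    IsUnit (u + x) := by
  obtain ⟨v, rfl⟩ := hu
  have h := (Ideal.mem_jacobson_bot.1 hx) (↑v⁻¹)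
  have : (v : A) + x = v * (x * ↑v⁻¹ + 1) := by
    rw [mul_add, mul_one, mul_comm x, ← mul_assoc, Units.mul_inv, one_mul, add_comm]
  rw [this]
  exact v.isUnit.mul h

/-- Two roots congruent modulo the Jacobson radical, one of them simple, coincide. -/
lemma eq_of_isRoot_of_sub_mem_jacobson (f : A[X]) {a b : A} (ha : f.IsRoot a) (hb : f.IsRoot b)
    (hab : a - b ∈ Ideal.jacobson ⊥) (hu : IsUnit (f.derivative.eval b)) : a = b := by
  obtain ⟨k, hk⟩ := Polynomial.binomExpansion f b (a - b)
  rw [add_sub_cancel, ha.eq_zero, hb.eq_zero, zero_add] at hk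
  have h2 : (a - b) * (f.derivative.eval b + k * (a - b)) = 0 := by
    linear_combination -hk
  have hu2 : IsUnit (f.derivative.eval b + k * (a - b)) :=
    isUnit_add_of_mem_jacobson hu (Ideal.mul_mem_left _ _ hab)
  have := hu2.mul_left_eq_zero.1 h2
  exact sub_eq_zero.1 this

lemma map_le_jacobson (I J : Ideal A) (hJ : J ≤ Ideal.jacobson ⊥) :
    J.map (Ideal.Quotient.mk I) ≤ Ideal.jacobson ⊥ := by
  intro z hz
  rw [Ideal.mem_map_iff_of_surjective _ Ideal.Quotient.mk_surjective] at hz
  obtain ⟨x, hx, rfl⟩ := hz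
  rw [Ideal.mem_jacobson_bot]
  intro y
  obtain ⟨y, rfl⟩ := Ideal.Quotient.mk_surjective y
  have := (Ideal.mem_jacobson_bot.1 (hJ hx)) y
  simpa using this.map (Ideal.Quotient.mk I)

lemma isUnit_mk_of_le {I J : Ideal A} (hIJ : I ≤ J) {x : A}
    (h : IsUnit (Ideal.Quotient.mk I x)) : IsUnit (Ideal.Quotient.mk J x) := by
  have := h.map (Ideal.Quotient.factor hIJ)
  simpa using this

lemma isUnit_mk_iff_quotQuot {I J : Ideal A} (hIJ : I ≤ J) (x : A) :
    IsUnit (Ideal.Quotient.mk J x) ↔
      IsUnit (Ideal.Quotient.mk (J.map (Ideal.Quotient.mk I)) (Ideal.Quotient.mk I x)) := by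
  have e := DoubleQuot.quotQuotEquivQuotOfLE_quotQuotMk x hIJ
  rw [← e]
  exact (MulEquiv.isUnit_map (DoubleQuot.quotQuotEquivQuotOfLE hIJ).toMulEquiv)

lemma mem_of_mk_mem_map {I J : Ideal A} (hIJ : I ≤ J) {x : A}
    (h : Ideal.Quotient.mk I x ∈ J.map (Ideal.Quotient.mk I)) : x ∈ J := by
  rw [Ideal.mem_map_iff_of_surjective _ Ideal.Quotient.mk_surjective] at h
  obtain ⟨y, hy, hyx⟩ := h
  rw [Ideal.Quotient.eq] at hyx
  have := J.sub_mem hy (hIJ hyx)
  simpa using this

theorem henselianRing_iff_of_le (I J : Ideal A) (hIJ : I ≤ J) :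
    HenselianRing A J ↔
      (HenselianRing A I ∧ HenselianRing (A ⧸ I) (Ideal.map (Ideal.Quotient.mk I) J)) := by
  constructor
  · intro hJ
    refine ⟨⟨hIJ.trans hJ.jac, ?_⟩, ⟨map_le_jacobson I J hJ.jac, ?_⟩⟩
    · intro f hf a₀ h₁ h₂
      obtain ⟨a, ha, haJ⟩ := hJ.is_henselian f hf a₀ (hIJ h₁) (isUnit_mk_of_le hIJ h₂)
      refine ⟨a, ha, ?_⟩
      rw [← Ideal.Quotient.eq_zero_iff_mem, map_sub, sub_eq_zero]
      apply eq_of_isRoot_of_sub_mem_jacobson (f.map (Ideal.Quotient.mk I))
      · rw [Polynomial.IsRoot, Polynomial.eval_map, Polynomial.eval₂_at_apply, ha.eq_zero,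
          map_zero]
      · rw [Polynomial.IsRoot, Polynomial.eval_map, Polynomial.eval₂_at_apply,
          Ideal.Quotient.eq_zero_iff_mem]
        exact h₁
      · rw [← map_sub]
        exact map_le_jacobson I J hJ.jac (Ideal.mem_map_of_mem _ haJ)
      · rw [Polynomial.derivative_map, Polynomial.eval_map, Polynomial.eval₂_at_apply]
        exact h₂
    · intro f hf a₀ h₁ h₂
      obtain ⟨F, hFmap, -, hFmon⟩ := Polynomial.lifts_and_natDegree_eq_and_monic
        (Polynomial.mem_lifts_of_surjective Ideal.Quotient.mk_surjective f) hf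
      obtain ⟨b, rfl⟩ := Ideal.Quotient.mk_surjective a₀
      have hFe : ∀ (G : A[X]) (c : A), (G.map (Ideal.Quotient.mk I)).eval
          (Ideal.Quotient.mk I c) = Ideal.Quotient.mk I (G.eval c) := fun G c => by
        rw [Polynomial.eval_map, Polynomial.eval₂_at_apply]
      have h1 : F.eval b ∈ J := by
        apply mem_of_mk_mem_map hIJ
        rw [← hFe, hFmap]
        exact h₁
      have h2 : IsUnit (Ideal.Quotient.mk J (F.derivative.eval b)) := by
        rw [isUnit_mk_iff_quotQuot hIJ, ← hFe, ← Polynomial.derivative_map, hFmap]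
        exact h₂
      obtain ⟨a, ha, haJ⟩ := hJ.is_henselian F hFmon b h1 h2
      refine ⟨Ideal.Quotient.mk I a, ?_, ?_⟩
      · rw [Polynomial.IsRoot, ← hFmap, hFe, ha.eq_zero, map_zero]
      · rw [← map_sub]
        exact Ideal.mem_map_of_mem _ haJ
  · rintro ⟨hI, hJI⟩
    have hloc := isLocalHom_of_le_jacobson_bot I hI.jac
    refine ⟨?_, ?_⟩
    · intro x hx
      rw [Ideal.mem_jacobson_bot]
      intro y
      have h := (Ideal.mem_jacobson_bot.1 (hJI.jac (Ideal.mem_map_of_mem
        (Ideal.Quotient.mk I) hx))) (Ideal.Quotient.mk I y)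
      rw [← map_mul, ← map_one (Ideal.Quotient.mk I), ← map_add] at h
      exact (isUnit_map_iff (Ideal.Quotient.mk I) _).1 h
    · intro f hf a₀ h₁ h₂
      have hFe : ∀ (c : A), (f.map (Ideal.Quotient.mk I)).eval
          (Ideal.Quotient.mk I c) = Ideal.Quotient.mk I (f.eval c) := fun c => by
        rw [Polynomial.eval_map, Polynomial.eval₂_at_apply]
      have hFe' : ∀ (c : A), (f.map (Ideal.Quotient.mk I)).derivative.eval
          (Ideal.Quotient.mk I c) = Ideal.Quotient.mk I (f.derivative.eval c) := fun c => by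
        rw [Polynomial.derivative_map, Polynomial.eval_map, Polynomial.eval₂_at_apply]
      obtain ⟨bb, hb, hbJ⟩ := hJI.is_henselian (f.map (Ideal.Quotient.mk I)) (hf.map _)
        (Ideal.Quotient.mk I a₀) (by rw [hFe]; exact Ideal.mem_map_of_mem _ h₁)
        (by rw [hFe', ← isUnit_mk_iff_quotQuot hIJ]; exact h₂)
      obtain ⟨b, rfl⟩ := Ideal.Quotient.mk_surjective bb
      have hbJ' : b - a₀ ∈ J := by
        rw [← map_sub] at hbJ
        exact mem_of_mk_mem_map hIJ hbJ
      have h1 : f.eval b ∈ I := by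
        rw [← Ideal.Quotient.eq_zero_iff_mem, ← hFe]
        exact hb
      have h2 : IsUnit (Ideal.Quotient.mk I (f.derivative.eval b)) := by
        -- f'(b) ≡ f'(a₀) mod J
        have hd : f.derivative.eval b - f.derivative.eval a₀ ∈ J := by
          obtain ⟨q, hq⟩ := Polynomial.sub_dvd_eval_sub b a₀ f.derivative
          rw [hq]
          exact J.mul_mem_right _ hbJ'
        have hJu : IsUnit (Ideal.Quotient.mk J (f.derivative.eval b)) := by
          have : Ideal.Quotient.mk J (f.derivative.eval b) =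
              Ideal.Quotient.mk J (f.derivative.eval a₀) := by
            rw [Ideal.Quotient.eq]; exact hd
          rw [this]; exact h₂
        rw [isUnit_mk_iff_quotQuot hIJ] at hJu
        have hloc2 := isLocalHom_of_le_jacobson_bot _ hJI.jac
        exact (isUnit_map_iff (Ideal.Quotient.mk (J.map (Ideal.Quotient.mk I))) _).1 hJu
      obtain ⟨a, ha, haI⟩ := hI.is_henselian f hf b h1 h2
      refine ⟨a, ha, ?_⟩
      have : a - a₀ = (a - b) + (b - a₀) := by ring
      rw [this]
      exact J.add_mem (hIJ haI) hbJ'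

theorem henselianRing_iff_radical (I : Ideal A) :
    HenselianRing A I ↔ HenselianRing A I.radical := by
  rw [henselianRing_iff_of_le I I.radical Ideal.le_radical]
  constructor
  · intro h
    refine ⟨h, henselianRing_of_isNilpotent _ fun z hz => ?_⟩
    rw [Ideal.mem_map_iff_of_surjective _ Ideal.Quotient.mk_surjective] at hz
    obtain ⟨x, ⟨n, hn⟩, rfl⟩ := hz
    exact ⟨n, by rw [← map_pow, Ideal.Quotient.eq_zero_iff_mem]; exact hn⟩
  · exact fun h => h.1

end HenselLe

end Groth.Agent.Lib.Helper1
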