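import Groth.Agent.Lib.Helper1.Hensel
import Mathlib.Algebra.Group.Pi.Units
open Polynomial

namespace Groth.Agent.Lib.Helper1
section HenselPi
variable {J : Type*} {A : J → Type*} [∀ j, CommRing (A j)] (I : ∀ j, Ideal (A j))

local notation "II" => ⨅ j, Ideal.comap (Pi.evalRingHom A j) (I j)

lemma mem_II {x : ∀ j, A j} : x ∈ II ↔ ∀ j, x j ∈ I j := by
  simp [Ideal.mem_comap]

lemma eval_pi_apply (f : (∀ j, A j)[X]) (x : ∀ j, A j) (j : J) :
    f.eval x j = (f.map (Pi.evalRingHom A j)).eval (x j) := by
  rw [eval_map]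
  exact (eval₂_at_apply (Pi.evalRingHom A j) x).symm

lemma isUnit_mk_II_iff (x : ∀ j, A j) :
    IsUnit (Ideal.Quotient.mk II x) ↔ ∀ j, IsUnit (Ideal.Quotient.mk (I j) (x j)) := by
  constructor
  · intro h j
    have hle : II ≤ Ideal.comap (Pi.evalRingHom A j) (I j) := iInf_le _ j
    have := h.map (Ideal.quotientMap (I j) (Pi.evalRingHom A j) hle)
    simpa using this
  · intro h
    choose y hy using fun j => isUnit_iff_exists_inv.1 (h j)
    choose z hz using fun j => Ideal.Quotient.mk_surjective (y j)
    refine isUnit_iff_exists_inv.2 ⟨Ideal.Quotient.mk _ z, ?_⟩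
    rw [← map_mul, ← map_one (Ideal.Quotient.mk _), Ideal.Quotient.eq, mem_II]
    intro j
    have := hy j
    rw [← hz j, ← map_mul, ← map_one (Ideal.Quotient.mk _), Ideal.Quotient.eq] at this
    simpa using this

theorem henselianRing_pi_of_forall (h : ∀ j, HenselianRing (A j) (I j)) :
    HenselianRing (∀ j, A j) II where
  jac x hx := by
    rw [mem_II] at hx
    rw [Ideal.mem_jacobson_bot]
    intro y
    rw [Pi.isUnit_iff]
    intro j
    exact Ideal.mem_jacobson_bot.1 ((h j).jac (hx j)) (y j)
  is_henselian f hf a₀ h₁ h₂ := by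
    rw [mem_II] at h₁
    rw [isUnit_mk_II_iff] at h₂
    have key : ∀ j, ∃ a : A j, (f.map (Pi.evalRingHom A j)).IsRoot a ∧ a - a₀ j ∈ I j := by
      intro j
      refine (h j).is_henselian _ (hf.map _) (a₀ j) ?_ ?_
      · rw [← eval_pi_apply]; exact h₁ j
      · rw [derivative_map, ← eval_pi_apply]; exact h₂ j
    choose a ha haI using key
    refine ⟨a, ?_, ?_⟩
    · rw [IsRoot]
      funext j
      rw [eval_pi_apply]
      exact ha j
    · rw [mem_II]
      exact haI

/-- The auxiliary integer polynomial `X^(d-1) (X-1)`, with the simple root `1`. -/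
noncomputable def gZ (d : ℕ) : ℤ[X] := X ^ (d - 1) * (X - 1)

lemma gZ_map (R : Type*) [CommRing R] (d : ℕ) :
    (gZ d).map (Int.castRingHom R) = X ^ (d - 1) * (X - 1) := by
  simp [gZ]

lemma gZ_monic (d : ℕ) : (gZ d).Monic := by
  have h1 : (X - 1 : ℤ[X]).Monic := by simpa using monic_X_sub_C (1 : ℤ)
  exact (monic_X_pow _).mul h1

lemma gZ_natDegree (d : ℕ) (hd : 1 ≤ d) : (gZ d).natDegree = d := by
  have h1 : (X - 1 : ℤ[X]).Monic := by simpa using monic_X_sub_C (1 : ℤ)
  have h2 : (X - 1 : ℤ[X]).natDegree = 1 := by simpa using natDegree_X_sub_C (1 : ℤ)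
  rw [gZ, (monic_X_pow _).natDegree_mul h1, natDegree_X_pow, h2]
  omega

theorem henselianRing_of_pi (h : HenselianRing (∀ j, A j) II) (j : J) :
    HenselianRing (A j) (I j) := by
  classical
  have hjac : I j ≤ Ideal.jacobson ⊥ := by
    intro x hx
    rw [Ideal.mem_jacobson_bot]
    intro y
    have hmem : (Pi.single j x : ∀ k, A k) ∈ II := by
      rw [mem_II]
      intro k
      by_cases hk : k = j
      · subst hk; simpa using hx
      · simp [Pi.single_eq_of_ne hk]
    have := (Ideal.mem_jacobson_bot.1 (h.jac hmem)) (Pi.single j y)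
    have := this.apply j
    simpa using this
  refine ⟨hjac, ?_⟩
  intro f hf a₀ h₁ h₂
  set d := f.natDegree with hd
  rcases Nat.eq_zero_or_pos d with hd0 | hdpos
  · -- `f = 1`, hence `I j = ⊤` and `A j` is trivial
    have hf1 : f = 1 := eq_one_of_monic_natDegree_zero hf hd0
    rw [hf1, eval_one] at h₁
    have h01 : (0 : A j) = 1 := by
      have := Ideal.mem_jacobson_bot.1 (hjac h₁) (-1)
      rw [one_mul, neg_add_cancel, isUnit_zero_iff] at this
      exact this
    have : Subsingleton (A j) := subsingleton_of_zero_eq_one h01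
    exact ⟨a₀, Subsingleton.elim _ _, by simp⟩
  · let c : ℕ → ∀ k, A k := fun n =>
      Pi.single j (f.coeff n - ((gZ d).coeff n : A j)) + fun k => ((gZ d).coeff n : A k)
    have hcj : ∀ n, c n j = f.coeff n := fun n => by simp [c]
    have hck : ∀ k, k ≠ j → ∀ n, c n k = ((gZ d).coeff n : A k) := fun k hk n => by
      simp [c, Pi.single_eq_of_ne hk]
    let F : (∀ k, A k)[X] := ∑ n ∈ Finset.range (d + 1), monomial n (c n)
    have hFc : ∀ n, F.coeff n = if n < d + 1 then c n else 0 := by
      intro n
      simp only [F, finsetSum_coeff, coeff_monomial]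
      rw [Finset.sum_ite_eq']
      simp
    have hFj : F.map (Pi.evalRingHom A j) = f := by
      ext n
      rw [coeff_map, hFc]
      split_ifs with hn
      · exact hcj n
      · rw [coeff_eq_zero_of_natDegree_lt (by omega)]
        rfl
    have hFk : ∀ k, k ≠ j → F.map (Pi.evalRingHom A k) = X ^ (d - 1) * (X - 1) := by
      intro k hk
      rw [← gZ_map]
      ext n
      rw [coeff_map, hFc, coeff_map]
      split_ifs with hn
      · exact hck k hk n
      · rw [coeff_eq_zero_of_natDegree_lt (p := gZ d) (by rw [gZ_natDegree d hdpos]; omega)]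
        simp
    have hFmon : F.Monic := by
      refine monic_of_natDegree_le_of_coeff_eq_one d ?_ ?_
      · rw [natDegree_le_iff_coeff_eq_zero]
        intro n hn
        rw [hFc, if_neg]
        have : d < n := by exact_mod_cast hn
        omega
      · rw [hFc, if_pos (by omega)]
        funext k
        by_cases hk : k = j
        · subst hk; rw [hcj]; exact hf.coeff_natDegree
        · rw [hck k hk]
          have := (gZ_monic d).coeff_natDegree
          rw [gZ_natDegree d hdpos] at this
          rw [this]; simp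
    let a₀' : ∀ k, A k := Pi.single j (a₀ - 1) + 1
    have ha₀j : a₀' j = a₀ := by simp [a₀']
    have ha₀k : ∀ k, k ≠ j → a₀' k = 1 := fun k hk => by simp [a₀', Pi.single_eq_of_ne hk]
    have h₁' : F.eval a₀' ∈ II := by
      rw [mem_II]
      intro k
      rw [eval_pi_apply]
      by_cases hk : k = j
      · subst hk; rw [hFj, ha₀j]; exact h₁
      · rw [hFk k hk, ha₀k k hk]; simp
    have h₂' : IsUnit (Ideal.Quotient.mk II (F.derivative.eval a₀')) := by
      rw [isUnit_mk_II_iff]
      intro k
      rw [eval_pi_apply, ← derivative_map]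
      by_cases hk : k = j
      · subst hk; rw [hFj, ha₀j]; exact h₂
      · rw [hFk k hk, ha₀k k hk]
        have : ((X ^ (d - 1) * (X - 1) : (A k)[X]).derivative.eval 1) = 1 := by
          simp [derivative_mul]
        rw [this, map_one]
        exact isUnit_one
    obtain ⟨a, ha, haI⟩ := h.is_henselian F hFmon a₀' h₁' h₂'
    refine ⟨a j, ?_, ?_⟩
    · have := congrFun ha.eq_zero j
      rw [eval_pi_apply, hFj] at this
      exact this
    · rw [mem_II] at haI
      have := haI j
      simpa [ha₀j] using this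

theorem henselianRing_pi_iff :
    HenselianRing (∀ j, A j) II ↔ ∀ j, HenselianRing (A j) (I j) :=
  ⟨fun h j => henselianRing_of_pi I h j, henselianRing_pi_of_forall I⟩

end HenselPi
end Groth.Agent.Lib.Helper1
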