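import Groth.Agent.Lib.Helper1.Flasque

universe u

open CategoryTheory Limits Opposite Abelian

namespace Groth.Agent.Lib.Helper1

section KillClass
variable {C : Type u} [SmallCategory C] (J : GrothendieckTopology C)

theorem kill_class_aux (n : ℕ) : ∀ (S : ShortComplex (Sheaf J AddCommGrpCat.{u}))
    (hS : S.ShortExact) [Injective S.X₂] (U : C) (ξ : Ext.{u} (freeSh J U) S.X₁ (n + 1)),
    ∃ Cov : J.Cover U, ∀ a : Cov.Arrow, (Ext.mk₀ (freeShMap J a.f)).comp ξ (zero_add _) = 0 := by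
  induction n with
  | zero =>
    intro S hS _ U ξ
    obtain ⟨x₃, hx₃⟩ := Ext.covariant_sequence_exact₁ _ hS ξ (Ext.eq_zero_of_injective _)
      (zero_add 1)
    let φ : freeSh J U ⟶ S.X₃ := Ext.homEquiv₀ x₃
    have hx₃' : x₃ = Ext.mk₀ φ := (Ext.mk₀_homEquiv₀_apply x₃).symm
    let s := freeShHomEquiv J U _ φ
    have hepi : Epi S.g := hS.epi_g
    have hls : Sheaf.IsLocallySurjective S.g :=
      (Sheaf.isLocallySurjective_iff_epi' (A := AddCommGrpCat.{u}) (φ := S.g)).2 hepi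
    refine ⟨⟨_, Presheaf.imageSieve_mem J S.g.hom (U := op U) s⟩, ?_⟩
    rintro ⟨V, f, ⟨t, ht⟩⟩
    dsimp only
    let ψ : freeSh J V ⟶ S.X₂ := (freeShHomEquiv J V _).symm t
    have key : freeShMap J f ≫ φ = ψ ≫ S.g := by
      apply (freeShHomEquiv J V _).injective
      rw [freeShHomEquiv_naturality_left, freeShHomEquiv_naturality_right]
      simp only [ψ, Equiv.apply_symm_apply]
      exact ht.symm
    rw [← hx₃, ← Ext.comp_assoc_of_second_deg_zero, hx₃', Ext.mk₀_comp_mk₀, key,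
      ← Ext.mk₀_comp_mk₀, Ext.comp_assoc_of_second_deg_zero, hS.comp_extClass, Ext.comp_zero]
  | succ m ih =>
    intro S hS _ U ξ
    obtain ⟨x₃, hx₃⟩ := Ext.covariant_sequence_exact₁ _ hS ξ (Ext.eq_zero_of_injective _) rfl
    obtain ⟨Cov, hC⟩ := ih (injSeq S.X₃) (injSeq_shortExact S.X₃) U x₃
    refine ⟨Cov, fun a => ?_⟩
    have h0 : (Ext.mk₀ (freeShMap J a.f)).comp x₃ (zero_add (m + 1)) = 0 := hC a
    rw [← hx₃, ← Ext.comp_assoc (Ext.mk₀ (freeShMap J a.f)) x₃ hS.extClass (zero_add (m + 1))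
      rfl (by omega), h0, Ext.zero_comp]

/-- A cohomology class in positive degree over an object `U` of a small site dies on some
covering sieve of `U`. -/
theorem kill_class (n : ℕ) (F : Sheaf J AddCommGrpCat.{u}) (U : C)
    (ξ : Ext.{u} (freeSh J U) F (n + 1)) :
    ∃ S : J.Cover U, ∀ a : S.Arrow, (Ext.mk₀ (freeShMap J a.f)).comp ξ (zero_add _) = 0 :=
  kill_class_aux J n (injSeq F) (injSeq_shortExact F) U ξ

end KillClass

end Groth.Agent.Lib.Helper1
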