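import Mathlib.LinearAlgebra.TensorProduct.Pi
import Mathlib.LinearAlgebra.TensorProduct.RightExactness
import Mathlib.LinearAlgebra.TensorProduct.Finiteness
import Mathlib.Algebra.Module.FinitePresentation
import Mathlib.RingTheory.Finiteness.Cardinality

open TensorProduct

namespace Groth.Agent.Lib.Helper1

section TensorPi

variable {R : Type*} [CommRing R] {M : Type*} [AddCommGroup M] [Module R M]

lemma exists_sum_tmul_of_span {n : ℕ} (s : Fin n → M)
    (hs : Submodule.span R (Set.range s) = ⊤)
    {Q : Type*} [AddCommGroup Q] [Module R Q] (x : M ⊗[R] Q) :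
    ∃ q : Fin n → Q, x = ∑ k, s k ⊗ₜ q k := by
  induction x using TensorProduct.induction_on with
  | zero => exact ⟨0, by simp⟩
  | tmul m q =>
    have hm : m ∈ Submodule.span R (Set.range s) := hs ▸ Submodule.mem_top
    obtain ⟨c, hc⟩ := (Submodule.mem_span_range_iff_exists_fun R).1 hm
    refine ⟨fun k => c k • q, ?_⟩
    rw [← hc, TensorProduct.sum_tmul]
    simp [TensorProduct.smul_tmul]
  | add x y hx hy =>
    obtain ⟨q, rfl⟩ := hx
    obtain ⟨q', rfl⟩ := hy
    exact ⟨q + q', by simp [TensorProduct.tmul_add, Finset.sum_add_distrib]⟩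

theorem piRightHom_surjective_of_finite [Module.Finite R M] {ι : Type*} (Q : ι → Type*)
    [∀ i, AddCommGroup (Q i)] [∀ i, Module R (Q i)] :
    Function.Surjective (TensorProduct.piRightHom R R M Q) := by
  obtain ⟨n, s, hs⟩ := Module.Finite.exists_fin (R := R) (M := M)
  intro t
  choose q hq using fun i => exists_sum_tmul_of_span s hs (t i)
  refine ⟨∑ k, s k ⊗ₜ (fun i => q i k), ?_⟩
  funext i
  rw [hq i, map_sum, Finset.sum_apply]
  rfl

theorem finite_of_piRightHom_surjective
    (h : Function.Surjective (TensorProduct.piRightHom R R M (fun _ : M => R))) :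
    Module.Finite R M := by
  classical
  obtain ⟨t, ht⟩ := h (fun m => m ⊗ₜ (1 : R))
  obtain ⟨k, x, φ, rfl⟩ := TensorProduct.exists_sum_tmul_eq t
  refine ⟨⟨Finset.univ.image x, ?_⟩⟩
  rw [eq_top_iff]
  intro m _
  have := congrFun ht m
  rw [map_sum, Finset.sum_apply] at this
  have h2 := congrArg (TensorProduct.rid R M) this
  simp only [map_sum, TensorProduct.piRightHom_tmul, TensorProduct.rid_tmul, one_smul] at h2
  rw [← h2]
  refine Submodule.sum_mem _ fun j _ => Submodule.smul_mem _ _ (Submodule.subset_span ?_)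
  simp

lemma piRightHom_rTensor {M' : Type*} [AddCommGroup M'] [Module R M'] (g : M →ₗ[R] M')
    {ι : Type*} (Q : ι → Type*) [∀ i, AddCommGroup (Q i)] [∀ i, Module R (Q i)]
    (y : M ⊗[R] (∀ i, Q i)) :
    TensorProduct.piRightHom R R M' Q (g.rTensor _ y) =
      fun i => g.rTensor (Q i) (TensorProduct.piRightHom R R M Q y i) := by
  induction y using TensorProduct.induction_on with
  | zero => funext i; simp
  | tmul m f => funext i; simp
  | add x y hx hy =>
    funext i
    rw [map_add, map_add, Pi.add_apply, hx, hy, map_add, Pi.add_apply, map_add]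

/-- The coordinate isomorphism `R^n ⊗ N ≃ N^n`. -/
noncomputable def finTensorEquiv (n : ℕ) (N : Type*) [AddCommGroup N] [Module R N] :
    (Fin n → R) ⊗[R] N ≃ₗ[R] (Fin n → N) :=
  TensorProduct.piLeft R N (fun _ : Fin n => R) ≪≫ₗ
    LinearEquiv.piCongrRight (fun _ => TensorProduct.lid R N)

lemma finTensorEquiv_tmul (n : ℕ) (N : Type*) [AddCommGroup N] [Module R N]
    (x : Fin n → R) (q : N) : finTensorEquiv n N (x ⊗ₜ q) = fun l => x l • q := by
  funext l
  simp [finTensorEquiv]

lemma piRightHom_injective_fin (n : ℕ) {ι : Type*} (Q : ι → Type*)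
    [∀ i, AddCommGroup (Q i)] [∀ i, Module R (Q i)] :
    Function.Injective (TensorProduct.piRightHom R R (Fin n → R) Q) := by
  have key : ∀ (y : (Fin n → R) ⊗[R] (∀ i, Q i)) (i : ι),
      finTensorEquiv n (Q i) (TensorProduct.piRightHom R R (Fin n → R) Q y i) =
        fun l => finTensorEquiv n (∀ i, Q i) y l i := by
    intro y i
    induction y using TensorProduct.induction_on with
    | zero => funext l; simp
    | tmul x f =>
      rw [TensorProduct.piRightHom_tmul, finTensorEquiv_tmul, finTensorEquiv_tmul]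
      rfl
    | add x y hx hy =>
      rw [map_add, Pi.add_apply, map_add, hx, hy, map_add]
      rfl
  rw [← LinearMap.ker_eq_bot, LinearMap.ker_eq_bot']
  intro y hy
  apply (finTensorEquiv n (∀ i, Q i)).injective
  rw [map_zero]
  funext l i
  have := key y i
  rw [hy, Pi.zero_apply, map_zero] at this
  exact (congrFun this l).symm

theorem piRightHom_injective_of_finitePresentation [Module.FinitePresentation R M] {ι : Type*}
    (Q : ι → Type*) [∀ i, AddCommGroup (Q i)] [∀ i, Module R (Q i)] :
    Function.Injective (TensorProduct.piRightHom R R M Q) := by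
  obtain ⟨n, m, f, g, hf, hfg⟩ := Module.FinitePresentation.exists_fin' R M
  rw [← LinearMap.ker_eq_bot, LinearMap.ker_eq_bot']
  intro x hx
  obtain ⟨y, rfl⟩ := LinearMap.rTensor_surjective (∀ i, Q i) hf x
  rw [piRightHom_rTensor] at hx
  have hz : ∀ i, ∃ z : (Fin m → R) ⊗[R] Q i,
      g.rTensor (Q i) z = TensorProduct.piRightHom R R (Fin n → R) Q y i := by
    intro i
    have hex := rTensor_exact (Q i) hfg hf
    have : TensorProduct.piRightHom R R (Fin n → R) Q y i ∈ LinearMap.ker (f.rTensor (Q i)) :=
      congrFun hx i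
    rw [hex.linearMap_ker_eq] at this
    exact this
  choose z hz using hz
  obtain ⟨w, hw⟩ := piRightHom_surjective_of_finite (M := Fin m → R) Q z
  have hyw : y = g.rTensor _ w := by
    apply piRightHom_injective_fin n Q
    rw [piRightHom_rTensor, hw]
    funext i
    exact (hz i).symm
  rw [hyw, ← LinearMap.rTensor_comp_apply, hfg.linearMap_comp_eq_zero, LinearMap.rTensor_zero,
    LinearMap.zero_apply]

theorem finitePresentation_of_piRightHom
    (h1 : Function.Surjective (TensorProduct.piRightHom R R M (fun _ : M => R)))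
    (h2 : ∀ (n : ℕ) (f : (Fin n → R) →ₗ[R] M),
      Function.Injective (TensorProduct.piRightHom R R M (fun _ : LinearMap.ker f => R))) :
    Module.FinitePresentation R M := by
  classical
  have hfin := finite_of_piRightHom_surjective h1
  obtain ⟨n, f, hf⟩ := Module.Finite.exists_fin' R M
  refine (Module.FinitePresentation.fg_ker_iff f hf).1 ?_
  set K := LinearMap.ker f with hK
  let T : (Fin n → R) ⊗[R] (K → R) :=
    ∑ l, (Pi.single l 1 : Fin n → R) ⊗ₜ (fun k : K => (k : Fin n → R) l)
  have hT : f.rTensor _ T = 0 := by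
    apply h2 n f
    rw [map_zero, piRightHom_rTensor]
    funext k
    simp only [T, map_sum, TensorProduct.piRightHom_tmul, Finset.sum_apply,
      LinearMap.rTensor_tmul, Pi.zero_apply]
    apply (TensorProduct.rid R M).injective
    simp only [map_sum, TensorProduct.rid_tmul, map_zero]
    have : ∑ l, (k : Fin n → R) l • (Pi.single l 1 : Fin n → R) = k := by
      funext l'
      simp [Finset.sum_apply, Pi.single_apply]
    simp_rw [← map_smul]
    rw [← map_sum, this]
    exact k.2
  have hex := rTensor_exact (K → R) (LinearMap.exact_subtype_ker_map f) hf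
  have hTr : T ∈ LinearMap.range (K.subtype.rTensor (K → R)) := by
    rw [← hex.linearMap_ker_eq]; exact hT
  obtain ⟨w, hw⟩ := hTr
  obtain ⟨k', a, φ, rfl⟩ := TensorProduct.exists_sum_tmul_eq w
  refine ⟨Finset.univ.image (fun j => (a j : Fin n → R)), ?_⟩
  apply le_antisymm
  · rw [Submodule.span_le]
    intro x hx
    simp only [Finset.coe_image, Finset.coe_univ, Set.image_univ, Set.mem_range] at hx
    obtain ⟨j, rfl⟩ := hx
    exact (a j).2
  · intro k hk
    let Φ : (Fin n → R) ⊗[R] (K → R) →ₗ[R] (Fin n → R) :=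
      (TensorProduct.rid R (Fin n → R)).toLinearMap ∘ₗ
        (LinearMap.proj (R := R) (φ := fun _ : K => R) ⟨k, hk⟩).lTensor (Fin n → R)
    have e1 : Φ T = k := by
      simp only [T, Φ, map_sum, LinearMap.comp_apply, LinearMap.lTensor_tmul, LinearMap.proj_apply,
        LinearEquiv.coe_coe, TensorProduct.rid_tmul]
      funext l'
      simp [Finset.sum_apply, Pi.single_apply]
    have e2 : Φ T = ∑ j, φ j ⟨k, hk⟩ • (a j : Fin n → R) := by
      rw [← hw]
      simp [Φ, map_sum]
    rw [← e1, e2]
    refine Submodule.sum_mem _ fun j _ => Submodule.smul_mem _ _ (Submodule.subset_span ?_)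
    simp

end TensorPi

end Groth.Agent.Lib.Helper1
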