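import Mathlib.RingTheory.Etale.Weakly
import Mathlib.RingTheory.Ideal.Pure
import Mathlib.RingTheory.Kaehler.Basic
import Mathlib.RingTheory.Unramified.Field
import Mathlib.FieldTheory.SeparableDegree
import Mathlib.FieldTheory.IntermediateField.Adjoin.Basic
import Mathlib.RingTheory.Derivation.Basic
import Mathlib.LinearAlgebra.Basis.VectorSpace
import Mathlib.RingTheory.TensorProduct.Free
import Mathlib.RingTheory.TensorProduct.Basic
import Mathlib.RingTheory.Polynomial.Basic
import Mathlib.RingTheory.Algebraic.Basic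
import Mathlib.LinearAlgebra.FiniteDimensional.Lemmas

/-!
# Weakly étale field extensions: the key element `u`

If `S` is a weakly étale `R`-algebra, then for every `a : S` there is `u : S ⊗[R] S` with
`μ(u) = 1` and `u * (1 ⊗ a - a ⊗ 1) = 0`.
-/

set_option autoImplicit false

universe u v

open TensorProduct

namespace Groth.Agent.Lib.Helper1

section Pure

variable (R : Type u) (S : Type v) [CommRing R] [CommRing S] [Algebra R S]

theorem kaehlerIdeal_pure [Algebra.WeaklyEtale R S] : (KaehlerDifferential.ideal R S).Pure := by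
  let F := (Algebra.TensorProduct.lmul' R (S := S)).toRingHom
  have hF : Function.Surjective F := fun x ↦ ⟨x ⊗ₜ 1, by simp [F]⟩
  have hflat : F.Flat := Algebra.WeaklyEtale.flat_lmul' R S
  let : Algebra (S ⊗[R] S) S := F.toAlgebra
  have hflat' : Module.Flat (S ⊗[R] S) S := hflat
  let e : ((S ⊗[R] S) ⧸ RingHom.ker (Algebra.ofId (S ⊗[R] S) S)) ≃ₐ[S ⊗[R] S] S :=
    Ideal.quotientKerAlgEquivOfSurjective (f := Algebra.ofId (S ⊗[R] S) S) hF
  exact Module.Flat.of_linearEquiv e.toLinearEquiv

theorem exists_u [Algebra.WeaklyEtale R S] (a : S) :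
    ∃ w : S ⊗[R] S, w * ((1 : S) ⊗ₜ[R] a - a ⊗ₜ[R] (1 : S)) = 0 ∧
      Algebra.TensorProduct.lmul' R w = 1 := by
  have := kaehlerIdeal_pure R S
  obtain ⟨y, hy, hxy⟩ := Ideal.exists_eq_mul_of_pure
    (KaehlerDifferential.one_smul_sub_smul_one_mem_ideal R a)
  refine ⟨1 - y, ?_, ?_⟩
  · rw [sub_mul, one_mul, mul_comm y, ← hxy, sub_self]
  · have : Algebra.TensorProduct.lmul' R y = 0 := hy
    rw [map_sub, map_one, this, sub_zero]

end Pure

section Commutator

variable (K : Type u) (L : Type v) [CommRing K] [CommRing L] [Algebra K L]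

/-- If some `K`-linear `g` satisfies `[g, α] = id`, then any `w` killed by `1 ⊗ α - α ⊗ 1` has
`μ(w) = 0`. -/
theorem lmul'_eq_zero_of_commutator (α : L) (g : L →ₗ[K] L)
    (hg : ∀ y, g (α * y) = α * g y + y) (w : L ⊗[K] L)
    (hw : w * ((1 : L) ⊗ₜ[K] α - α ⊗ₜ[K] (1 : L)) = 0) :
    Algebra.TensorProduct.lmul' K w = 0 := by
  let Ψ : L ⊗[K] L →ₗ[K] L := TensorProduct.lift ((LinearMap.mul K L).compl₂ g)
  have key : ∀ v : L ⊗[K] L,
      Ψ (v * ((1 : L) ⊗ₜ[K] α - α ⊗ₜ[K] (1 : L))) = Algebra.TensorProduct.lmul' K v := by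
    intro v
    induction v using TensorProduct.induction_on with
    | zero => simp
    | tmul x y =>
      rw [mul_sub, Algebra.TensorProduct.tmul_mul_tmul, Algebra.TensorProduct.tmul_mul_tmul,
        map_sub]
      simp only [Ψ, TensorProduct.lift.tmul, LinearMap.compl₂_apply, LinearMap.mul_apply',
        mul_one, Algebra.TensorProduct.lmul'_apply_tmul]
      rw [mul_comm y α, hg]
      ring
    | add v₁ v₂ h₁ h₂ => rw [add_mul, map_add, h₁, h₂, map_add]
  rw [← key, hw, map_zero]

end Commutator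


section Fields

open IntermediateField Polynomial

variable {K : Type u} {L : Type u} [Field K] [Field L] [Algebra K L]

theorem exists_commutator (M : IntermediateField K L) (a : M) (D : Derivation K M M)
    (hD : D a = 1) : ∃ g : L →ₗ[K] L, ∀ y, g ((a : L) * y) = (a : L) * g y + y := by
  let b := Module.Free.chooseBasis M L
  let g : L →ₗ[K] L := ((Finsupp.linearCombination M b).restrictScalars K) ∘ₗ
    (Finsupp.mapRange.linearMap (D : M →ₗ[K] M)) ∘ₗ (b.repr.toLinearMap.restrictScalars K)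
  refine ⟨g, fun y => ?_⟩
  have hs : ∀ z : L, (a : L) * z = a • z := fun z => rfl
  have h2 : Finsupp.mapRange.linearMap (D : M →ₗ[K] M) (a • b.repr y) =
      a • Finsupp.mapRange.linearMap (D : M →ₗ[K] M) (b.repr y) + D a • b.repr y := by
    ext j
    simp [Derivation.leibniz]
    ring
  simp only [g, LinearMap.coe_comp, Function.comp_apply, LinearMap.restrictScalars_apply,
    LinearEquiv.coe_coe, hs, map_smul]
  rw [h2, map_add, map_smul, map_smul, hD, one_smul, Module.Basis.linearCombination_repr]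

theorem exists_derivation (α : L) (hint : IsIntegral K α) (hsep : ¬ IsSeparable K α) :
    ∃ D : Derivation K K⟮α⟯ K⟮α⟯, D (AdjoinSimple.gen K α) = 1 := by
  have : FiniteDimensional K K⟮α⟯ := adjoin.finiteDimensional hint
  have hns : ¬ Algebra.IsSeparable K K⟮α⟯ := by
    rwa [isSeparable_adjoin_simple_iff_isSeparable]
  have hnu : ¬ Algebra.FormallyUnramified K K⟮α⟯ := by
    rwa [Algebra.FormallyUnramified.iff_isSeparable]
  have hnt : Nontrivial Ω[K⟮α⟯⁄K] := by
    by_contra h
    rw [not_nontrivial_iff_subsingleton] at h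
    exact hnu ⟨h⟩
  obtain ⟨x, hx⟩ := exists_ne (0 : Ω[K⟮α⟯⁄K])
  obtain ⟨φ, hφ⟩ := Module.Projective.exists_dual_ne_zero K⟮α⟯ hx
  let D0 : Derivation K K⟮α⟯ K⟮α⟯ := φ.compDer (KaehlerDifferential.D K K⟮α⟯)
  have hD0 : D0 (AdjoinSimple.gen K α) ≠ 0 := by
    intro h0
    have hall : ∀ m : K⟮α⟯, D0 m = 0 := by
      intro m
      obtain ⟨p, rfl⟩ := (adjoin.powerBasis hint).exists_eq_aeval' m
      rw [Derivation.map_aeval, adjoin.powerBasis_gen, h0, smul_zero]
    apply hφ
    have : φ = 0 := by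
      apply LinearMap.ext_on_range (KaehlerDifferential.span_range_derivation K K⟮α⟯)
      intro m
      exact hall m
    rw [this, LinearMap.zero_apply]
  refine ⟨(D0 (AdjoinSimple.gen K α))⁻¹ • D0, ?_⟩
  rw [Derivation.smul_apply, smul_eq_mul, inv_mul_cancel₀ hD0]

theorem eq_zero_of_transcendental (α : L) (ht : Transcendental K α) (w : L ⊗[K] L)
    (hw : w * ((1 : L) ⊗ₜ[K] α - α ⊗ₜ[K] (1 : L)) = 0) : w = 0 := by
  classical
  let Ψ : (L →ₗ[K] L) → (L ⊗[K] L →ₗ[K] L) := fun h =>
    TensorProduct.lift ((LinearMap.mul K L).compl₂ h)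
  have Ψ_tmul : ∀ h x y, Ψ h (x ⊗ₜ y) = x * h y := fun _ _ _ => by
    simp [Ψ]
  have Ψ_add : ∀ h₁ h₂ v, Ψ (h₁ + h₂) v = Ψ h₁ v + Ψ h₂ v := by
    intro h₁ h₂ v
    induction v using TensorProduct.induction_on with
    | zero => simp
    | tmul x y => simp [Ψ_tmul, mul_add]
    | add v₁ v₂ e₁ e₂ => rw [map_add, map_add, map_add, e₁, e₂]; ring
  have Ψ_smul : ∀ (a : K) h v, Ψ (a • h) v = algebraMap K L a * Ψ h v := by
    intro a h v
    induction v using TensorProduct.induction_on with
    | zero => simp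
    | tmul x y => simp only [Ψ_tmul, LinearMap.smul_apply]; rw [Algebra.smul_def]; ring
    | add v₁ v₂ e₁ e₂ => rw [map_add, map_add, e₁, e₂]; ring
  have r1 : ∀ h v, Ψ h (v * ((1 : L) ⊗ₜ[K] α)) = Ψ (h ∘ₗ LinearMap.mulLeft K α) v := by
    intro h v
    induction v using TensorProduct.induction_on with
    | zero => simp
    | tmul x y =>
      rw [Algebra.TensorProduct.tmul_mul_tmul, Ψ_tmul, Ψ_tmul, mul_one, LinearMap.comp_apply,
        LinearMap.mulLeft_apply, mul_comm y α]
    | add v₁ v₂ e₁ e₂ => rw [add_mul, map_add, map_add, e₁, e₂]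
  have r2 : ∀ h v, Ψ h (v * (α ⊗ₜ[K] (1 : L))) = α * Ψ h v := by
    intro h v
    induction v using TensorProduct.induction_on with
    | zero => simp
    | tmul x y =>
      rw [Algebra.TensorProduct.tmul_mul_tmul, Ψ_tmul, Ψ_tmul, mul_one]; ring
    | add v₁ v₂ e₁ e₂ => rw [add_mul, map_add, map_add, e₁, e₂, mul_add]
  have hw' : w * ((1 : L) ⊗ₜ[K] α) = w * (α ⊗ₜ[K] (1 : L)) := by
    rw [mul_sub, sub_eq_zero] at hw; exact hw
  have rel : ∀ h, Ψ (h ∘ₗ LinearMap.mulLeft K α) w = α * Ψ h w := by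
    intro h; rw [← r1, hw', r2]
  have relp : ∀ (p : K[X]) h, Ψ (h ∘ₗ LinearMap.mulLeft K (aeval α p)) w =
      aeval α p * Ψ h w := by
    intro p
    induction p using Polynomial.induction_on with
    | C a =>
      intro h
      have : h ∘ₗ LinearMap.mulLeft K (aeval α (C a)) = a • h := by
        ext y; simp [Algebra.smul_def, Algebra.commutes]
      rw [this, Ψ_smul, aeval_C]
    | add p q hp hq =>
      intro h
      have : h ∘ₗ LinearMap.mulLeft K (aeval α (p + q)) =
          h ∘ₗ LinearMap.mulLeft K (aeval α p) + h ∘ₗ LinearMap.mulLeft K (aeval α q) := by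
        ext y; simp [add_mul]
      rw [this, Ψ_add, hp, hq, map_add, add_mul]
    | monomial n a ih =>
      intro h
      have e : aeval α (C a * X ^ (n + 1)) = aeval α (C a * X ^ n) * α := by
        simp [pow_succ, mul_assoc]
      rw [e, LinearMap.mulLeft_mul, ← LinearMap.comp_assoc, rel, ih]; ring
  -- coordinates
  let b := Module.Free.chooseBasis K L
  let B := Algebra.TensorProduct.basis L b
  let c := B.repr w
  have hwsum : w = ∑ j ∈ c.support, c j ⊗ₜ[K] b j := by
    conv_lhs => rw [← B.linearCombination_repr w]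
    rw [Finsupp.linearCombination_apply, Finsupp.sum]
    refine Finset.sum_congr rfl fun j _ => ?_
    exact Algebra.TensorProduct.basis_repr_symm_apply' b (c j) j
  have hΨ : ∀ h, Ψ h w = ∑ j ∈ c.support, c j * h (b j) := by
    intro h; rw [hwsum, map_sum]; simp only [Ψ_tmul]
  have hc : ∀ k, c k = 0 := by
    intro k
    let s := c.support
    let N := s.card + 1
    have : FiniteDimensional K (degreeLT K N) :=
      LinearEquiv.finiteDimensional (degreeLTEquiv K N).symm
    let ℓ : degreeLT K N →ₗ[K] (s → K) := LinearMap.pi fun j : s =>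
      (b.coord k) ∘ₗ (LinearMap.mulRight K (b j)) ∘ₗ (aeval α).toLinearMap ∘ₗ
        (degreeLT K N).subtype
    have hdim : Module.finrank K (s → K) < Module.finrank K (degreeLT K N) := by
      rw [(degreeLTEquiv K N).finrank_eq, Module.finrank_fintype_fun_eq_card,
        Module.finrank_fintype_fun_eq_card, Fintype.card_coe, Fintype.card_fin]
      omega
    obtain ⟨p, hpker, hp0⟩ := Submodule.ne_bot_iff _ |>.mp (LinearMap.ker_ne_bot_of_finrank_lt (f := ℓ) hdim)
    have hp0' : (p : K[X]) ≠ 0 := fun h => hp0 (Subtype.ext h)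
    have hβ : aeval α (p : K[X]) ≠ 0 := fun h => ht ⟨p, hp0', h⟩
    let h : L →ₗ[K] L := (Algebra.linearMap K L) ∘ₗ (b.coord k)
    have h1 : Ψ (h ∘ₗ LinearMap.mulLeft K (aeval α (p : K[X]))) w = 0 := by
      rw [hΨ]
      refine Finset.sum_eq_zero fun j hj => ?_
      have := congrFun (LinearMap.mem_ker.mp hpker) ⟨j, hj⟩
      simp only [ℓ, LinearMap.pi_apply, LinearMap.comp_apply, Submodule.subtype_apply,
        AlgHom.toLinearMap_apply, LinearMap.mulRight_apply, Pi.zero_apply] at this
      simp [h, this]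
    have h2 : Ψ h w = c k := by
      rw [hΨ]
      rw [Finset.sum_eq_single k]
      · simp [h]
      · intro j _ hjk
        simp [h, Module.Basis.coord_apply, Module.Basis.repr_self, hjk]
      · intro hk
        simp [Finsupp.notMem_support_iff.mp hk]
    have := relp (p : K[X]) h
    rw [h1, h2] at this
    exact (mul_eq_zero.mp this.symm).resolve_left hβ
  have : c = 0 := Finsupp.ext hc
  rw [← B.repr.symm_apply_apply w]
  change B.repr.symm c = 0
  rw [this, map_zero]

end Fields

end Groth.Agent.Lib.Helper1
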